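import Cfsg.Agent.H664.Eight.Base
import Cfsg.Agent.H590.MElevenDeg
import Cfsg.Agent.H417.DegMTwelve
import Cfsg.Agent.H417.DegMTwentyTwo

/-!
# The character degrees of `M₁₁`, `M₁₂`, `M₂₂` (helper175, S4899)

* `m11` : a simple group of order 7920 has exactly seven character degrees;
* `eight_m12`, `eight_m22` : simple groups of orders 95040, 443520 have at least eight.
-/

set_option autoImplicit false

open Cfsg

namespace Cfsg.Agent.H175.Eight

open Cfsg.Agent.H664.Eight

universe u

variable {S : Type u} [Group S]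

/-- **`M₁₁` : the degrees are `1, 10, 11, 16, 44, 45, 55`.** -/
theorem mem_m11 [Finite S] (h : Cfsg.IsM11 S) (d : ℕ) : d ∈ charDegrees S ↔ d ∈ [1, 10, 11, 16, 44, 45, 55] := by
  obtain ⟨e, he⟩ := H590.MElevenDeg.exists_equiv h
  have hd : ∀ i, charDegree (e i : S → ℂ) = H590.MElevenDeg.deg10 i := fun i => Blocks.Basic.charDegree_of_eq (he i)
  constructor
  · rintro ⟨χ, rfl⟩
    obtain ⟨i, rfl⟩ := e.surjective χ
    rw [hd i]
    fin_cases i <;> simp [H590.MElevenDeg.deg10]
  · intro h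
    simp only [List.mem_cons, List.not_mem_nil, or_false] at h
    rcases h with rfl | rfl | rfl | rfl | rfl | rfl | rfl
    · exact ⟨e 0, hd 0⟩
    · exact ⟨e 1, hd 1⟩
    · exact ⟨e 7, hd 7⟩
    · exact ⟨e 5, hd 5⟩
    · exact ⟨e 8, hd 8⟩
    · exact ⟨e 4, hd 4⟩
    · exact ⟨e 9, hd 9⟩

/-- **`M₁₁` has seven character degrees.** -/
theorem m11 (h : Cfsg.IsM11 S) : (charDegrees S).ncard = 7 := by
  have : Finite S := Nat.finite_of_card_ne_zero (by rw [h.2]; norm_num)
  exact ncard_eq_of_list [1, 10, 11, 16, 44, 45, 55] (by decide) (mem_m11 h)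

/-- **`M₁₂` has at least eight character degrees.** -/
theorem eight_m12 (h : Cfsg.IsM12 S) : Eight S := by
  classical
  have hs : IsSimpleGroup S := h.1
  have hc : Nat.card S = 95040 := h.2
  have : Finite S := Nat.finite_of_card_ne_zero (by rw [h.2]; norm_num)
  have := Fintype.ofFinite S
  have := Characters.Core.finite_irr (G := S)
  have := Fintype.ofFinite (IrrCharacter S)
  have h11 := fun P : Sylow 11 S => Cfsg.Agent.MTwelve.SylowEleven.centralizer_sylow11 hc P
  have hN := fun P : Sylow 11 S => Cfsg.Agent.MTwelve.SylowEleven.card_normalizer_sylow11 hc P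
  obtain ⟨C, t, hdeg, ho, ht2, ht1, hst⟩ := H417.DegMTwelve.exists_ctx hc h11 hN
  have hcd : ∀ ψ : IrrCharacter S, charDegree (ψ : S → ℂ) = C.deg ψ := fun ψ => by
    rw [hdeg]
    exact MTwelve.ElevenMain.charDegree_eq_deg ψ
  obtain ⟨d, hd, hd33⟩ := (H417.DegMTwelve.exists_both h).2
  obtain ⟨χ, hχ, -, hχ1⟩ := MTwelve.DegreeElevenMain.exists_real_eleven hc h11 hN
  have e11 : charDegree χ = 11 := Blocks.Basic.charDegree_of_eq (by rw [hχ1]; norm_num)
  refine eight_of_list [1, 11, 16, 45, 54, 120, 144, d] ?_ (by simp) ?_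
  · have : ∀ x ∈ [1, 11, 16, 45, 54, 120, 144], x ≠ d := by
      intro x hx hxd
      subst hxd
      simp only [List.mem_cons, List.not_mem_nil, or_false] at hx
      omega
    simp only [List.mem_cons, List.not_mem_nil, or_false] at this
    simp only [List.nodup_cons, List.mem_cons, List.not_mem_nil, or_false, not_or, List.nodup_nil, not_false_eq_true,
      and_true]
    refine ⟨⟨by norm_num, by norm_num, by norm_num, by norm_num, by norm_num, by norm_num, this _ (by tauto)⟩,
      ⟨by norm_num, by norm_num, by norm_num, by norm_num, by norm_num, this _ (by tauto)⟩,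
      ⟨by norm_num, by norm_num, by norm_num, by norm_num, this _ (by tauto)⟩,
      ⟨by norm_num, by norm_num, by norm_num, this _ (by tauto)⟩,
      ⟨by norm_num, by norm_num, this _ (by tauto)⟩, ⟨by norm_num, this _ (by tauto)⟩, this _ (by tauto)⟩
  · intro x hx
    simp only [List.mem_cons, List.not_mem_nil, or_false] at hx
    rcases hx with rfl | rfl | rfl | rfl | rfl | rfl | rfl | rfl
    · exact one_mem
    · exact ⟨⟨χ, hχ⟩, e11⟩
    · exact ⟨C.th, (hcd _).trans C.dth⟩
    · exact ⟨C.c45, (hcd _).trans C.d45⟩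
    · exact ⟨C.c54, (hcd _).trans C.d54⟩
    · exact ⟨C.c120, (hcd _).trans C.d120⟩
    · exact ⟨C.c144, (hcd _).trans C.d144⟩
    · exact hd

/-- **`M₂₂` has at least eight character degrees.** -/
theorem eight_m22 (h : Cfsg.IsM22 S) : Eight S := by
  have : Finite S := Nat.finite_of_card_ne_zero (by rw [h.2]; norm_num)
  obtain ⟨f, hf⟩ := H417.DegMTwentyTwo.exists_enum h
  refine eight_of_list [1, 21, 45, 55, 99, 154, 210, 231] (by decide) (by simp) ?_
  intro x hx
  simp only [List.mem_cons, List.not_mem_nil, or_false] at hx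
  rcases hx with rfl | rfl | rfl | rfl | rfl | rfl | rfl | rfl
  · exact ⟨f 0, hf 0⟩
  · exact ⟨f 1, hf 1⟩
  · exact ⟨f 2, hf 2⟩
  · exact ⟨f 4, hf 4⟩
  · exact ⟨f 5, hf 5⟩
  · exact ⟨f 6, hf 6⟩
  · exact ⟨f 7, hf 7⟩
  · exact ⟨f 8, hf 8⟩

end Cfsg.Agent.H175.Eight
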